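import Cfsg.Agent.Lib.HJ.MxA

theorem CA.E_CA_MxM_sq9_eq_10.t : True := by
  have _h := @CA.MxM.sq9.eq_10.{0}
  trivial
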