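import Init.Data.List.Basic

theorem CA.E_List_range_loop_eq_def.t : True := by
  have _h := @List.range.loop.eq_def
  trivial
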